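import Groth.Agent.Ega4B.DepthBasic
import Groth.Agent.Ega4B.DepthTransfer
import Groth.Agent.Ega4A.Depth
import Groth.Agent.Pi1A.DepthPunctured

/-!
# Depth of a local ring and of its quotient by a regular element; localizations; functions on the
punctured spectrum; the graded pieces of the ideal generated by a regular element
-/

set_option autoImplicit false
universe u
open CategoryTheory CategoryTheory.Limits AlgebraicGeometry

namespace Groth.Agent.Sga2lef.H76.DepthHyp

variable {A : Type u} [CommRing A]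

theorem mem_nonZeroDivisors {t : A} (hreg : IsSMulRegular A t) : t ∈ nonZeroDivisors A := by
  rw [mem_nonZeroDivisors_iff_right]
  intro x hx
  refine hreg (?_ : t • x = t • (0 : A))
  rw [smul_eq_mul, smul_zero, mul_comm, hx]

theorem span_ne_top [IsLocalRing A] {t : A} (ht : t ∈ IsLocalRing.maximalIdeal A) :
    Ideal.span {t} ≠ ⊤ := by
  intro h
  have h1 : Ideal.span {t} ≤ IsLocalRing.maximalIdeal A := by
    rw [Ideal.span_le]
    simpa using ht
  rw [h, top_le_iff] at h1
  exact (IsLocalRing.maximalIdeal.isMaximal A).ne_top h1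

/-- Depth of `A/t` as an `A`-module. -/
theorem depth_quot_add_one [IsLocalRing A] [IsNoetherianRing A] {t : A}
    (ht : t ∈ IsLocalRing.maximalIdeal A) (hreg : IsSMulRegular A t) :
    LocCoh.depth A (A ⧸ Ideal.span {t}) + 1 = LocCoh.depth A A := by
  have h3 := Groth.Agent.Ega4B.DepthBasic.depth_quotSMulTop_add_one A t ht hreg
  have e : QuotSMulTop t A ≃ₗ[A] (A ⧸ Ideal.span {t}) :=
    Submodule.quotEquivOfEq _ _ (by
      ext x
      rw [Submodule.mem_smul_pointwise_iff_exists, Ideal.mem_span_singleton']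
      constructor
      · rintro ⟨y, _, hy⟩
        exact ⟨y, by rw [← hy, smul_eq_mul, mul_comm]⟩
      · rintro ⟨y, hy⟩
        exact ⟨y, trivial, by rw [← hy, smul_eq_mul, mul_comm]⟩)
  rw [← Groth.Agent.Ega4B.DepthBasic.depth_congr e, h3]

/-- `depth (A/t) + 1 = depth A` for `t` regular in the maximal ideal. -/
theorem depth_quot_self_add_one [IsLocalRing A] [IsNoetherianRing A] {t : A}
    (ht : t ∈ IsLocalRing.maximalIdeal A) (hreg : IsSMulRegular A t)
    [IsLocalRing (A ⧸ Ideal.span {t})] :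
    LocCoh.depth (A ⧸ Ideal.span {t}) (A ⧸ Ideal.span {t}) + 1 = LocCoh.depth A A := by
  have h1 : LocCoh.depth (A ⧸ Ideal.span {t}) (A ⧸ Ideal.span {t}) =
      LocCoh.depth A (A ⧸ Ideal.span {t}) :=
    Groth.Agent.Ega4B.DepthTransfer.depth_eq (Ideal.Quotient.mk (Ideal.span {t})) (AddEquiv.refl _)
      (fun _ _ => rfl) Ideal.Quotient.mk_surjective
  rw [h1, depth_quot_add_one ht hreg]

theorem add_one_le_depth_of_le_quot [IsLocalRing A] [IsNoetherianRing A] {t : A}
    (ht : t ∈ IsLocalRing.maximalIdeal A) (hreg : IsSMulRegular A t)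
    [IsLocalRing (A ⧸ Ideal.span {t})]
    (hb : (3 : ℕ∞) ≤ LocCoh.depth (A ⧸ Ideal.span {t}) (A ⧸ Ideal.span {t})) :
    (4 : ℕ∞) ≤ LocCoh.depth A A := by
  rw [← depth_quot_self_add_one ht hreg]
  refine le_trans (le_of_eq ?_) (add_le_add hb le_rfl)
  norm_num

/-- If `dim A/p = d` and `depth A ≥ n + d` then `depth A_p ≥ n`. -/
theorem le_depth_localization_of_dim [IsLocalRing A] [IsNoetherianRing A] (p : Ideal A) [p.IsPrime]
    (n d : ℕ) (hd : ((n + d : ℕ) : ℕ∞) ≤ LocCoh.depth A A)
    (hdim : ringKrullDim (A ⧸ p) = (d : WithBot ℕ∞)) :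
    (n : ℕ∞) ≤ LocCoh.depth (Localization.AtPrime p) (Localization.AtPrime p) := by
  have h := Groth.Agent.Ega4A.Depth.depth_le_depth_localizedModule_add (M := A) p
  rw [hdim] at h
  have h2 : (((n + d : ℕ) : ℕ∞) : WithBot ℕ∞) ≤
      ((LocCoh.depth (Localization.AtPrime p) (Localization.AtPrime p) + (d : ℕ∞) : ℕ∞) :
        WithBot ℕ∞) := by
    refine (WithBot.coe_le_coe.mpr hd).trans (h.trans (le_of_eq ?_))
    rfl
  have h3 := WithBot.coe_le_coe.mp h2
  rw [Nat.cast_add] at h3
  exact (ENat.add_le_add_iff_right (ENat.natCast_ne_top d)).mp h3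

/-- Functions on the punctured spectrum of a local ring of depth at least two. -/
theorem bijective_res (A : Type u) [CommRing A] [IsLocalRing A]
    (hA : (2 : ℕ∞) ≤ LocCoh.depth A A) :
    Function.Bijective ((Spec (CommRingCat.of A)).presheaf.map
      (homOfLE (le_top : FEt.puncturedSpec A ≤ ⊤)).op) := by
  have h := Groth.Agent.Pi1A.DepthPunctured.bijective_res_puncturedSpec A hA
    (𝟙 (Spec (CommRingCat.of A))) ⊤
  have key : ∀ (B B' : (Spec (CommRingCat.of A)).Opens) (_ : B = B')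
      (hle : B ≤ ⊤) (hle' : B' ≤ ⊤),
      Function.Bijective ((Spec (CommRingCat.of A)).presheaf.map (homOfLE hle).op) →
        Function.Bijective ((Spec (CommRingCat.of A)).presheaf.map (homOfLE hle').op) := by
    intro B B' e; subst e; intro _ _; exact id
  exact key _ _ (by rw [top_inf_eq]; rfl) _ _ h

/-- The graded pieces of the ideal generated by a regular element are free. -/
theorem free_gr (t : A) (hreg : IsSMulRegular A t) (n : ℕ) :
    Module.Free (A ⧸ Ideal.span {t}) (↥(Ideal.span {t} ^ n) ⧸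
      (Ideal.span {t} • (⊤ : Submodule A ↥(Ideal.span {t} ^ n)))) := by
  have hregn : IsSMulRegular A (t ^ n) := hreg.pow n
  -- `A ≃ (t ^ n)`
  have hmem : ∀ a : A, a * t ^ n ∈ Ideal.span {t} ^ n := fun a =>
    Ideal.mul_mem_left _ _ (Ideal.pow_mem_pow (Ideal.mem_span_singleton_self t) n)
  let φ : A →ₗ[A] ↥(Ideal.span {t} ^ n) :=
    { toFun := fun a => ⟨a * t ^ n, hmem a⟩
      map_add' := fun a b => Subtype.ext (add_mul a b _)
      map_smul' := fun a b => Subtype.ext (mul_assoc a b _) }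
  have hφ : Function.Bijective φ := by
    constructor
    · intro a b hab
      have h1 : a * t ^ n = b * t ^ n := congrArg Subtype.val hab
      refine hregn (?_ : t ^ n • a = t ^ n • b)
      rw [smul_eq_mul, smul_eq_mul, mul_comm, h1, mul_comm]
    · rintro ⟨x, hx⟩
      rw [Ideal.span_singleton_pow, Ideal.mem_span_singleton'] at hx
      obtain ⟨a, ha⟩ := hx
      exact ⟨a, Subtype.ext ha⟩
  let e : A ≃ₗ[A] ↥(Ideal.span {t} ^ n) := LinearEquiv.ofBijective φ hφ
  have hmap : Submodule.map (e : A →ₗ[A] ↥(Ideal.span {t} ^ n)) (Ideal.span {t}) =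
      Ideal.span {t} • (⊤ : Submodule A ↥(Ideal.span {t} ^ n)) := by
    have h1 : Ideal.span {t} • (⊤ : Submodule A A) = Ideal.span {t} := by
      rw [smul_eq_mul, Ideal.mul_top]
    have h2 : Submodule.map (e : A →ₗ[A] ↥(Ideal.span {t} ^ n)) (⊤ : Submodule A A) = ⊤ := by
      rw [Submodule.map_top]
      exact LinearMap.range_eq_top.mpr hφ.2
    calc Submodule.map (e : A →ₗ[A] ↥(Ideal.span {t} ^ n)) (Ideal.span {t})
        = Submodule.map (e : A →ₗ[A] ↥(Ideal.span {t} ^ n))
            (Ideal.span {t} • (⊤ : Submodule A A)) :=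
          congrArg (Submodule.map (e : A →ₗ[A] ↥(Ideal.span {t} ^ n))) h1.symm
      _ = _ := by rw [Submodule.map_smul'', h2]
  let e' : (A ⧸ Ideal.span {t}) ≃ₗ[A] (↥(Ideal.span {t} ^ n) ⧸
      (Ideal.span {t} • (⊤ : Submodule A ↥(Ideal.span {t} ^ n)))) :=
    Submodule.Quotient.equiv _ _ e hmap
  let e'' : (A ⧸ Ideal.span {t}) ≃ₗ[A ⧸ Ideal.span {t}] (↥(Ideal.span {t} ^ n) ⧸
      (Ideal.span {t} • (⊤ : Submodule A ↥(Ideal.span {t} ^ n)))) :=
    { e' with
      map_smul' := fun r x => by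
        obtain ⟨r, rfl⟩ := Ideal.Quotient.mk_surjective r
        exact e'.map_smul r x }
  exact Module.Free.of_equiv e''

end Groth.Agent.Sga2lef.H76.DepthHyp
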