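import Groth.Prelude.Def_Formal2
import Groth.Prelude.Def_FEt
import Groth.Agent.Fga.UnitRestrict
import Mathlib.AlgebraicGeometry.IdealSheaf.Functorial

/-!
# Transfer of `PicPullbackInjective` / `PicPullbackSurjective` between a closed immersion and the
closed subscheme cut out by its kernel ideal sheaf
-/

set_option autoImplicit false
universe u
open CategoryTheory CategoryTheory.Limits AlgebraicGeometry

namespace Groth.Agent.Sga2lef.H76.PicTransfer

/-- If pull-back along `e ≫ i` has trivial kernel on Picard groups, so has pull-back along `i`. -/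
theorem injective_of_comp {X Y Z : Scheme.{u}} (e : Z ⟶ Y) (i : Y ⟶ X)
    (h : Formal2.PicPullbackInjective (e ≫ i)) : Formal2.PicPullbackInjective i := by
  intro L hL ⟨φ⟩
  refine h L hL ⟨?_⟩
  exact ((Scheme.Modules.pullbackComp e i).symm.app L) ≪≫
    (Scheme.Modules.pullback e).mapIso φ ≪≫ Fga.UnitRestrict.pullbackUnitIso e

/-- A closed immersion factors as an isomorphism onto the closed subscheme cut out by its kernel. -/
theorem exists_iso_of_ker_eq {Z U : Scheme.{u}} (f' : Z ⟶ U) [IsClosedImmersion f']
    (I : U.IdealSheafData) (h : f'.ker = I) :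
    ∃ e : Z ≅ I.subscheme, e.hom ≫ I.subschemeι = f' := by
  subst h
  exact ⟨asIso f'.toImage, f'.toImage_imageι⟩

/-- For a cartesian square of a closed immersion `f : Z ⟶ Y` along `j : U ⟶ Y` with base
change `f' : Z' ⟶ U`, the scheme `Z'` is the closed subscheme of `U` cut out by the inverse image
ideal of `f.ker`. -/
theorem exists_iso {Y Z U Z' : Scheme.{u}} {f : Z ⟶ Y} [IsClosedImmersion f] {j : U ⟶ Y}
    {f' : Z' ⟶ U} {j' : Z' ⟶ Z} (h : IsPullback j' f' f j) :
    ∃ e : Z' ≅ (f.ker.comap j).subscheme, e.hom ≫ (f.ker.comap j).subschemeι = f' := by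
  have hf' : IsClosedImmersion f' := MorphismProperty.of_isPullback h inferInstance
  refine exists_iso_of_ker_eq f' _ ?_
  have he1 : h.flip.isoPullback.hom ≫ pullback.fst j f = f' := h.flip.isoPullback_hom_fst
  rw [← he1, Scheme.Hom.ker_comp_of_isIso, Scheme.IdealSheafData.ker_fst_of_isClosedImmersion]

/-- Trivial kernel of the pull-back of invertible modules along a closed immersion `f'` which is the
base change of `f` along `j`, in terms of the closed subscheme cut out by `f.ker.comap j`. -/
theorem picPullbackInjective_subschemeι {Y Z U Z' : Scheme.{u}} {f : Z ⟶ Y} [IsClosedImmersion f]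
    {j : U ⟶ Y} {f' : Z' ⟶ U} {j' : Z' ⟶ Z} (h : IsPullback j' f' f j)
    (hf' : Formal2.PicPullbackInjective f') :
    Formal2.PicPullbackInjective (f.ker.comap j).subschemeι := by
  obtain ⟨e, he⟩ := exists_iso h
  rw [← he] at hf'
  exact injective_of_comp _ _ hf'

/-- The closed immersion `Spec (A/f) → Spec A`. -/
instance isClosedImmersion_specQuotMap (A : Type u) [CommRing A] (f : A) :
    IsClosedImmersion (Formal2.specQuotMap A f) :=
  IsClosedImmersion.spec_of_surjective _ Ideal.Quotient.mk_surjective

/-- The Picard kernel statement for the restriction of `Spec (A/f) → Spec A` to the punctured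
spectrum, in terms of the closed subscheme cut out by the kernel ideal sheaf. -/
theorem injective_of_restrict (A : Type u) [CommRing A] (U : (Spec (CommRingCat.of A)).Opens) (f : A)
    (h : Formal2.PicPullbackInjective (Formal2.specQuotMap A f ∣_ U)) :
    Formal2.PicPullbackInjective (((Spec.map (CommRingCat.ofHom
      (Ideal.Quotient.mk (Ideal.span {f})))).ker.comap U.ι)).subschemeι :=
  picPullbackInjective_subschemeι (isPullback_morphismRestrict (Formal2.specQuotMap A f) U).flip h

end Groth.Agent.Sga2lef.H76.PicTransfer
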